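import Cfsg.Agent.Lib.PSy.Grp
import Cfsg.Agent.Lib.CharDeg.PairChar
import Cfsg.Agent.Lib.Modular.Column
import Cfsg.Agent.Lib.Block.Principal

/-! Groups in which any two Sylow `p`-subgroups generate a `p`-solvable subgroup: characters. -/

set_option autoImplicit false

namespace Cfsg.Lib.PSy

open Subgroup Finset Cfsg.Lib.Modular Cfsg.Lib.Core Cfsg.Lib.Char Cfsg.Lib.Block
open scoped ComplexConjugate Classical

variable {G : Type*} [Group G] [Fintype G]

theorem exists_sum_eq (K : Subgroup G) {χ : G → ℂ} (hχ : IsCharacter G χ) :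
    ∃ m : ℕ, classInner (fun k : K => χ k) (fun _ => 1) = m ∧ ∑ k : K, χ k = Nat.card K * m := by
  obtain ⟨m, hm⟩ := (hχ.restrict K).exists_inner_eq_nat isCharacter_one
  refine ⟨m, hm, ?_⟩
  rw [← hm, card_mul_classInner]
  simp

theorem re_le {χ : G → ℂ} (hχ : IsIrrCharacter G χ) {K : Subgroup G} {z : G}
    (hz : ∀ k ∈ K, χ (z * k) = χ z) {o : G} (ho : o ∈ K) :
    2 * (χ z).re - charDegree χ ≤ (χ o).re := by
  obtain ⟨m, hm, hs⟩ := exists_sum_eq K hχ.isCharacter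
  have h1 : 2 * (m : ℝ) - charDegree χ ≤ (χ o).re := by
    have h := (hχ.isCharacter.restrict K).sub_inner_smul_irr isIrrCharacter_one
    obtain ⟨n, hn⟩ := h.exists_apply_one
    have h2 := h.norm_le_of_apply_one hn ⟨o, ho⟩
    simp only [Pi.sub_apply, Pi.smul_apply, hm, smul_eq_mul, mul_one, OneMemClass.coe_one,
      hχ.apply_one_eq] at hn h2
    have h3 := congrArg Complex.re hn
    have h4 := (abs_le.1 ((Complex.abs_re_le_norm _).trans h2)).1
    simp only [Complex.sub_re, Complex.natCast_re] at h3 h4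
    linarith
  set a : G → ℂ := fun t => ∑ k : K, χ (t * k) with ha
  have conv : ∀ w : G, ∑ t, conj (a (t * w⁻¹)) * a t =
      ∑ k : K, ∑ k' : K, Nat.card G * χ ((k : G)⁻¹ * w * k') / χ 1 := by
    intro w
    simp only [ha, map_sum, sum_mul_sum]
    rw [sum_comm]
    refine sum_congr rfl fun k _ => ?_
    rw [sum_comm]
    refine sum_congr rfl fun k' _ => ?_
    rw [← hχ.sum_inv_mul_apply_mul_self]
    refine Fintype.sum_equiv (Equiv.mulRight (w⁻¹ * k)) _ _ fun t => ?_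
    rw [← hχ.apply_inv]
    simp only [Equiv.coe_mulRight]
    congr 2 <;> group
  have c1 := conv z
  have c2 := conv 1
  have e1 : ∀ k k' : K, χ ((k : G)⁻¹ * z * k') = χ z := fun k k' => by
    rw [mul_assoc, hχ.isClassFunction.mul_comm, mul_assoc]
    exact hz _ (K.mul_mem k'.2 (K.inv_mem k.2))
  have e2 : ∀ k : K, ∑ k' : K, Nat.card G * χ ((k : G)⁻¹ * 1 * k') / χ 1 =
      Nat.card G * (Nat.card K * m) / χ 1 := fun k => by
    rw [← hs, mul_sum, sum_div]
    exact Fintype.sum_equiv (Equiv.mulLeft k⁻¹) _ _ fun t => by simp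
  simp only [e1, sum_const, card_univ, nsmul_eq_mul, ← Nat.card_eq_fintype_card] at c1
  simp only [e2, sum_const, card_univ, nsmul_eq_mul, ← Nat.card_eq_fintype_card] at c2
  simp only [inv_one, mul_one] at c2
  have c3 : ∑ t, conj (a (t * z⁻¹)) * a (t * z⁻¹) = ∑ t, conj (a t) * a t :=
    Fintype.sum_equiv (Equiv.mulRight z⁻¹) _ _ fun t => rfl
  have h2 : 2 * (∑ t, conj (a (t * z⁻¹)) * a t).re ≤
      (∑ t, conj (a (t * z⁻¹)) * a (t * z⁻¹)).re + (∑ t, conj (a t) * a t).re := by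
    rw [Complex.re_sum, Complex.re_sum, Complex.re_sum, mul_sum, ← sum_add_distrib]
    refine sum_le_sum fun t _ => ?_
    simp only [Complex.mul_re, Complex.conj_re, Complex.conj_im]
    nlinarith [sq_nonneg ((a (t * z⁻¹)).re - (a t).re), sq_nonneg ((a (t * z⁻¹)).im - (a t).im)]
  have hx : (0 : ℝ) < charDegree χ := by exact_mod_cast hχ.charDegree_pos
  have hK : (0 : ℝ) < Nat.card K := by exact_mod_cast Nat.card_pos
  have hG : (0 : ℝ) < Nat.card G := by exact_mod_cast Nat.card_pos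
  have f1 : (Nat.card K : ℂ) * (Nat.card K * (Nat.card G * χ z / χ 1)) =
      ((Nat.card K * Nat.card K * Nat.card G / charDegree χ : ℝ) : ℂ) * χ z := by
    rw [hχ.apply_one_eq]; push_cast; ring
  have f2 : (Nat.card K : ℂ) * (Nat.card G * (Nat.card K * m) / χ 1) =
      ((Nat.card K * Nat.card K * Nat.card G / charDegree χ * m : ℝ) : ℂ) := by
    rw [hχ.apply_one_eq]; push_cast; ring
  rw [c3, c1, c2, f1, f2, Complex.re_ofReal_mul, Complex.ofReal_re] at h2
  have h3 : (0 : ℝ) < Nat.card K * Nat.card K * Nat.card G / charDegree χ := by positivity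
  have h4 : (χ z).re ≤ m := le_of_mul_le_mul_left (by linarith) h3
  linarith

/-- The sum of a character over `A`. -/
noncomputable def sR (A : Subgroup G) (χ : G → ℂ) : ℝ := (∑ a : A, χ a).re

theorem sum_eq_sR (A : Subgroup G) {χ : G → ℂ} (hχ : IsCharacter G χ) :
    ∑ a : A, χ a = sR A χ := by
  obtain ⟨m, -, hm⟩ := exists_sum_eq A hχ
  rw [sR, hm, ← Nat.cast_mul, Complex.natCast_re, Complex.ofReal_natCast]

theorem sR_one (A : Subgroup G) : sR A (irrOne G : G → ℂ) = Nat.card A := by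
  simp [sR]

theorem sum_ite_cj (A : Subgroup G) (z : G) (c : ℂ) :
    ∑ a : A, (if IsConj z a then c else 0) = (cj A z).ncard * c := by
  rw [← sum_filter, sum_const, nsmul_eq_mul]
  congr 2
  rw [← Set.ncard_coe_finset, ← Set.ncard_image_of_injective _ Subtype.val_injective]
  congr 1
  ext d
  simp only [cj, coe_filter, mem_univ, true_and, Set.mem_image, Set.mem_ofPred_eq]
  exact ⟨fun ⟨a, h, e⟩ => e ▸ ⟨a.2, h⟩, fun ⟨h1, h2⟩ => ⟨⟨d, h1⟩, h2, rfl⟩⟩

variable {p : ℕ} [hp : Fact p.Prime] {M : Ideal AlgInt} [hM : Modular p M] {A : Subgroup G} {z : G}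

theorem orth_one {v : G} (hv : ∃ k : ℕ, orderOf v = p ^ k) (h1 : v ≠ 1) {o : G}
    (ho : ¬ p ∣ orderOf o) :
    ∑ χ with χ ∈ principalBlock M G, (χ : G → ℂ) o * conj ((χ : G → ℂ) v) = 0 := by
  refine sum_mul_conj_eq_zero (p := p) Block.isPBlock_principalBlock.fblk_mem_SG ?_
  rw [pPart_of_not_dvd hp.out ho, pPart_of_pElt hp.out hv]
  exact fun h => h1 (isConj_one_right.1 h)

variable (M) in
theorem card_le_lamP (hA : IsPGroup p A) : Nat.card A ≤ lamP M G := by
  choose m _ hm using fun χ : IrrCharacter G => exists_sum_eq A χ.2.isCharacter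
  have h1 : ∑ a : A, ∑ χ with χ ∈ principalBlock M G,
      (χ : G → ℂ) 1 * conj ((χ : G → ℂ) a) = lamP M G := by
    rw [cast_lamP, sum_eq_single 1 (fun a _ ha => orth_one (pElt_of_mem hp.out hA a.2)
      (fun e => ha (Subtype.ext e)) (not_dvd_orderOf_one hp.out)) (by simp)]
    rfl
  have h2 : ((Nat.card A * ∑ χ with χ ∈ principalBlock M G,
      charDegree (χ : G → ℂ) * m χ : ℕ) : ℂ) = lamP M G := by
    rw [← h1, sum_comm]
    push_cast
    rw [mul_sum]
    refine sum_congr rfl fun χ _ => ?_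
    rw [← mul_sum, ← map_sum, hm, χ.2.apply_one_eq]
    simp only [map_mul, map_natCast]
    ring
  have h3 : 1 ≤ ∑ χ with χ ∈ principalBlock M G, charDegree (χ : G → ℂ) * m χ := by
    refine le_trans ?_ (single_le_sum (f := fun χ : IrrCharacter G => charDegree (χ : G → ℂ) * m χ)
      (fun _ _ => Nat.zero_le _) (mem_filter.2 ⟨mem_univ _, Block.irrOne_mem_principalBlock⟩))
    have h4 := hm (irrOne G)
    simp only [irrOne_apply, sum_const, card_univ, nsmul_eq_mul, mul_one,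
      ← Nat.card_eq_fintype_card] at h4
    have h5 : m (irrOne G) = 1 := by
      have := mul_left_cancel₀ (card_ne_zero_complex A) ((mul_one _).trans h4)
      exact_mod_cast this.symm
    rw [h5, mul_one]
    exact (irrOne G).2.charDegree_pos
  have h6 := Nat.cast_injective h2
  rw [← h6]
  exact Nat.le_mul_of_pos_right _ h3

variable (M) in
theorem card_le_lamP_centralizer (hA : IsPGroup p A) (hz : ∀ a ∈ A, Commute z a) :
    Nat.card A ≤ lamP M (centralizer ({z} : Set G)) := by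
  have h : A ≤ centralizer ({z} : Set G) := fun a ha =>
    mem_centralizer_singleton_iff.2 (hz a ha).eq.symm
  rw [← Nat.card_congr (subgroupOfEquivOfLe h).toEquiv]
  exact card_le_lamP M hA.comap_subtype

theorem sum_sR_mul (hA : IsPGroup p A) {v : G} (hv : ∃ k : ℕ, orderOf v = p ^ k) :
    ∑ χ with χ ∈ principalBlock M G, (sR A (χ : G → ℂ) : ℂ) * conj ((χ : G → ℂ) v) =
      (cj A v).ncard * lamP M (centralizer ({v} : Set G)) := by
  rw [← sum_ite_cj]
  simp only [← fun χ : IrrCharacter G => sum_eq_sR A χ.2.isCharacter, sum_mul]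
  rw [sum_comm]
  refine sum_congr rfl fun a _ => ?_
  convert sum_principal_mul_conj_pElt (M := M) (pElt_of_mem hp.out hA a.2) hv

variable (p M A z) in
/-- The local configuration. -/
def CH : Prop :=
  ∀ g : G, ∃ d ∈ A, IsConj z d ∧ ∃ K : Subgroup G, (Nat.card K).Coprime p ∧
    d⁻¹ * (g * z * g⁻¹) ∈ K ∧ ∀ a ∈ A, a ≠ 1 → ∀ k ∈ K, ∀ χ ∈ principalBlock M G,
      (χ : G → ℂ) (a * k) = (χ : G → ℂ) a

omit hM in
theorem CH.ident (h : CH p M A z) (hzA : z ∈ A) (hz1 : z ≠ 1) :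
    ∃ o : G → G, (∀ g, ¬ p ∣ orderOf (o g)) ∧ ∀ χ ∈ principalBlock M G,
      (∀ g, 2 * ((χ : G → ℂ) z).re - charDegree (χ : G → ℂ) ≤ ((χ : G → ℂ) (o g)).re) ∧
      ∑ g, (χ : G → ℂ) (o g) = Nat.card G * ((sR A (χ : G → ℂ) / charDegree (χ : G → ℂ) : ℝ) *
        (χ : G → ℂ) z - sR A (χ : G → ℂ) + (χ : G → ℂ) 1) := by
  choose d hd _ K hK ho hk using h
  refine ⟨fun g => (d g)⁻¹ * (g * z * g⁻¹), fun g => not_dvd_of_mem (hK g) (ho g),
    fun χ hχ => ⟨fun g => re_le χ.2 (fun k hk' => hk g z hzA hz1 k hk' χ hχ) (ho g), ?_⟩⟩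
  have h1 : ∀ g, ∑ a : A, (χ : G → ℂ) (g * z * g⁻¹ * a) =
      sR A (χ : G → ℂ) + ((χ : G → ℂ) ((d g)⁻¹ * (g * z * g⁻¹)) - (χ : G → ℂ) 1) := by
    intro g
    have e1 : ∑ a : A, (χ : G → ℂ) (g * z * g⁻¹ * a) =
        ∑ a : A, (χ : G → ℂ) (a * ((d g)⁻¹ * (g * z * g⁻¹))) :=
      Fintype.sum_equiv (Equiv.mulRight ⟨d g, hd g⟩) _ _ fun a => by
        rw [χ.2.isClassFunction.mul_comm]
        simp [mul_assoc]
    rw [e1, ← sum_eq_sR A χ.2.isCharacter, ← sub_eq_iff_eq_add', ← sum_sub_distrib,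
      sum_eq_single (1 : A) (fun a _ ha => sub_eq_zero.2
        (hk g a a.2 (fun e => ha (Subtype.ext e)) _ (ho g) χ hχ)) (by simp)]
    simp
  have h2 := sum_congr (rfl : (univ : Finset G) = univ) fun g _ => h1 g
  rw [sum_comm] at h2
  simp only [χ.2.sum_conj_mul, ← sum_div, ← mul_sum, sum_eq_sR A χ.2.isCharacter,
    sum_add_distrib, sum_sub_distrib, sum_const, card_univ, nsmul_eq_mul,
    ← Nat.card_eq_fintype_card] at h2
  rw [Complex.ofReal_div, Complex.ofReal_natCast, ← χ.2.apply_one_eq]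
  linear_combination -h2

omit hM in
theorem CH.sR_le (h : CH p M A z) (hzA : z ∈ A) (hz1 : z ≠ 1) {χ : IrrCharacter G}
    (hχ : χ ∈ principalBlock M G) (hf : ‖(χ : G → ℂ) z‖ < charDegree (χ : G → ℂ)) :
    sR A (χ : G → ℂ) / charDegree (χ : G → ℂ) ≤ 2 := by
  obtain ⟨o, -, h2⟩ := h.ident hzA hz1
  obtain ⟨h3, h4⟩ := h2 χ hχ
  have h5 := congrArg Complex.re h4
  have h6 := sum_le_sum fun g (_ : g ∈ univ) => h3 g
  rw [Complex.re_sum, ← Complex.ofReal_natCast, Complex.re_ofReal_mul, χ.2.apply_one_eq] at h5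
  simp only [Complex.add_re, Complex.sub_re, Complex.re_ofReal_mul, Complex.ofReal_re,
    Complex.natCast_re] at h5
  rw [h5, sum_const, card_univ, nsmul_eq_mul, ← Nat.card_eq_fintype_card] at h6
  have hG : (0 : ℝ) < Nat.card G := by exact_mod_cast Nat.card_pos
  have hx : (0 : ℝ) < charDegree (χ : G → ℂ) := by exact_mod_cast χ.2.charDegree_pos
  have h7 := le_of_mul_le_mul_left h6 hG
  have h8 : ((χ : G → ℂ) z).re < charDegree (χ : G → ℂ) := (Complex.re_le_norm _).trans_lt hf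
  have h9 : sR A (χ : G → ℂ) = sR A (χ : G → ℂ) / charDegree (χ : G → ℂ) * charDegree (χ : G → ℂ) :=
    (div_mul_cancel₀ _ hx.ne').symm
  by_contra hc
  push Not at hc
  nlinarith

theorem CH.eqn (h : CH p M A z) (hzA : z ∈ A) (hz1 : z ≠ 1) (hA : IsPGroup p A) {v : G}
    (hv : ∃ k : ℕ, orderOf v = p ^ k) (h1 : v ≠ 1) :
    ∑ χ with χ ∈ principalBlock M G, ((sR A (χ : G → ℂ) / charDegree (χ : G → ℂ) : ℝ) : ℂ) *
      (χ : G → ℂ) z * conj ((χ : G → ℂ) v) =
      (cj A v).ncard * lamP M (centralizer ({v} : Set G)) := by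
  obtain ⟨o, h2, h3⟩ := h.ident hzA hz1
  have h4 : ∑ g, ∑ χ with χ ∈ principalBlock M G, (χ : G → ℂ) (o g) * conj ((χ : G → ℂ) v) = 0 :=
    sum_eq_zero fun g _ => orth_one hv h1 (h2 g)
  rw [sum_comm, sum_congr rfl fun χ hχ => by
    rw [← sum_mul, (h3 χ (mem_filter.1 hχ).2).2, mul_assoc], ← mul_sum,
    mul_eq_zero, or_iff_right (card_ne_zero_complex G)] at h4
  simp only [add_mul, sub_mul, sum_add_distrib, sum_sub_distrib, sum_sR_mul hA hv,
    orth_one hv h1 (not_dvd_orderOf_one hp.out)] at h4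
  linear_combination h4

theorem sum_norm_sq {v : G} (hv : ∃ k : ℕ, orderOf v = p ^ k) :
    ∑ χ with χ ∈ principalBlock M G, ‖(χ : G → ℂ) v‖ ^ 2 =
      (lamP M (centralizer ({v} : Set G)) : ℝ) := by
  have h := sum_principal_mul_conj_pElt (M := M) hv hv
  rw [if_pos (IsConj.refl v)] at h
  simp only [Complex.mul_conj'] at h
  exact_mod_cast h

theorem CH.eqn_self (h : CH p M A z) (hzA : z ∈ A) (hz1 : z ≠ 1) (hA : IsPGroup p A) :
    ∑ χ with χ ∈ principalBlock M G, sR A (χ : G → ℂ) / charDegree (χ : G → ℂ) *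
      ‖(χ : G → ℂ) z‖ ^ 2 = (cj A z).ncard * (lamP M (centralizer ({z} : Set G)) : ℝ) := by
  have h1 := h.eqn hzA hz1 hA (pElt_of_mem hp.out hA hzA) hz1
  simp only [mul_assoc, Complex.mul_conj'] at h1
  exact_mod_cast h1

/-- Nontrivial irreducible characters are faithful with trivial centre. -/
def Fth (G : Type*) [Group G] : Prop :=
  ∀ χ : IrrCharacter G, χ ≠ irrOne G → ∀ g : G, g ≠ 1 → ‖(χ : G → ℂ) g‖ < charDegree (χ : G → ℂ)

include hM in
theorem sum_le_of_bound {f g : IrrCharacter G → ℝ} {c : ℝ}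
    (h : ∀ χ ∈ principalBlock M G, χ ≠ irrOne G → f χ ≤ g χ) (h1 : f (irrOne G) ≤ g (irrOne G) + c) :
    ∑ χ with χ ∈ principalBlock M G, f χ ≤ ∑ χ with χ ∈ principalBlock M G, g χ + c := by
  have h0 : irrOne G ∈ univ.filter (· ∈ principalBlock M G) :=
    mem_filter.2 ⟨mem_univ _, Block.irrOne_mem_principalBlock⟩
  rw [← add_sum_erase _ _ h0, ← add_sum_erase _ _ h0]
  have := sum_le_sum fun χ (hχ : χ ∈ (univ.filter (· ∈ principalBlock M G)).erase (irrOne G)) =>
    h χ (mem_filter.1 (mem_of_mem_erase hχ)).2 (ne_of_mem_erase hχ)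
  linarith

theorem deg_one : (charDegree (irrOne G : G → ℂ) : ℝ) = 1 := by
  rw [coe_irrOne, charDegree_one, Nat.cast_one]

theorem CH.ncard_le (h : CH p M A z) (hf : Fth G) (hzA : z ∈ A) (hz1 : z ≠ 1) (hA : IsPGroup p A)
    (hz : ∀ a ∈ A, Commute z a) : (cj A z).ncard ≤ 2 := by
  have h1 := sum_le_of_bound (p := p) (M := M) (c := Nat.card A - 2)
    (f := fun χ => sR A (χ : G → ℂ) / charDegree (χ : G → ℂ) * ‖(χ : G → ℂ) z‖ ^ 2)
    (g := fun χ => 2 * ‖(χ : G → ℂ) z‖ ^ 2)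
    (fun χ hχ hne => mul_le_mul_of_nonneg_right (h.sR_le hzA hz1 hχ (hf χ hne z hz1))
      (by positivity)) (by simp [sR_one, deg_one])
  rw [h.eqn_self hzA hz1 hA, ← mul_sum, sum_norm_sq (pElt_of_mem hp.out hA hzA)] at h1
  have h2 : (Nat.card A : ℝ) ≤ lamP M (centralizer ({z} : Set G)) := by
    exact_mod_cast card_le_lamP_centralizer M hA hz
  by_contra hc
  have h3 : (3 : ℝ) ≤ (cj A z).ncard := by exact_mod_cast not_le.1 hc
  have h4 : (0 : ℝ) ≤ lamP M (centralizer ({z} : Set G)) := Nat.cast_nonneg _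
  nlinarith

theorem exists_ne_one {v : G} (hv : ∃ k : ℕ, orderOf v = p ^ k) (h1 : v ≠ 1) :
    ∃ χ ∈ principalBlock M G, ((χ : G → ℂ) v).re < 0 := by
  by_contra hc
  push Not at hc
  have h := congrArg Complex.re (orth_one (M := M) hv h1 (not_dvd_orderOf_one hp.out))
  rw [Complex.re_sum, Complex.zero_re] at h
  refine (sum_pos' (fun χ hχ => ?_) ⟨irrOne G,
    mem_filter.2 ⟨mem_univ _, Block.irrOne_mem_principalBlock⟩, by simp⟩).ne' h
  rw [χ.2.apply_one_eq, ← Complex.ofReal_natCast, Complex.re_ofReal_mul, Complex.conj_re]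
  exact mul_nonneg (Nat.cast_nonneg _) (hc χ (mem_filter.1 hχ).2)

theorem CH.not_one (h : CH p M A z) (hf : Fth G) (hzA : z ∈ A) (hz1 : z ≠ 1) (hA : IsPGroup p A)
    (hz2 : z * z ≠ 1) (hi : ¬ p ∣ (centralizer ({z} : Set G)).index)
    (hu : ∀ d ∈ cj A z, d = z) : False := by
  obtain ⟨χ, hχ, h1⟩ := exists_ne_one (M := M) (pElt_of_mem hp.out hA hzA) hz1
  have hne : χ ≠ irrOne G := by
    rintro rfl
    simp only [irrOne_apply, Complex.one_re] at h1
    linarith
  have h2 : ∀ g, (χ : G → ℂ) (g * z * g⁻¹ * (z * z)⁻¹) = (χ : G → ℂ) z⁻¹ := fun g => by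
    obtain ⟨d, hd, e, K, -, ho, hk⟩ := h g
    obtain rfl := hu d ⟨hd, e⟩
    rw [← hk _ (A.inv_mem hzA) (inv_ne_one.2 hz1) _ ho χ hχ, χ.2.isClassFunction.mul_comm]
    group
  have h3 := χ.2.sum_conj_mul z (z * z)⁻¹
  simp only [h2, sum_const, card_univ, nsmul_eq_mul, ← Nat.card_eq_fintype_card] at h3
  have h4 := apply_ne_zero_of_mem_principalBlock hχ hi
  have h5 := hf χ hne _ (inv_ne_one.2 hz2)
  have h6 := congrArg norm h3
  have hG : (0 : ℝ) < Nat.card G := by exact_mod_cast Nat.card_pos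
  have hx : (0 : ℝ) < charDegree (χ : G → ℂ) := by exact_mod_cast χ.2.charDegree_pos
  rw [norm_div, norm_mul, norm_mul, norm_mul, χ.2.apply_inv z, Complex.norm_conj,
    χ.2.isCharacter.norm_apply_one, Complex.norm_natCast, eq_div_iff hx.ne'] at h6
  have h7 := mul_left_cancel₀ (mul_pos hG (norm_pos_iff.2 h4)).ne' h6
  linarith

theorem not_two (hf : Fth G) (hA : IsPGroup p A) (hzA : z ∈ A) (hz1 : z ≠ 1)
    (hc : ∀ a ∈ A, ∀ b ∈ A, Commute a b) (h : ∀ a ∈ A, a ≠ 1 → CH p M A a)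
    (h2 : ∀ a ∈ A, a ≠ 1 → (cj A a).ncard = 2) : False := by
  set E := (univ : Finset A).erase 1 with hE
  have hE1 : ∀ a ∈ E, (a : G) ≠ 1 := fun a ha e => ne_of_mem_erase ha (Subtype.ext e)
  have hEc : (E.card : ℝ) = Nat.card A - 1 := by
    rw [hE, card_erase_of_mem (mem_univ _), card_univ, ← Nat.card_eq_fintype_card,
      Nat.cast_sub Nat.card_pos, Nat.cast_one]
  set s : IrrCharacter G → ℝ := fun χ => sR A (χ : G → ℂ) - charDegree (χ : G → ℂ) with hs
  have hs1 : ∀ χ : IrrCharacter G, ∑ a ∈ E, (χ : G → ℂ) a = s χ := fun χ => by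
    rw [hE, sum_erase_eq_sub (mem_univ _), sum_eq_sR A χ.2.isCharacter, hs, OneMemClass.coe_one,
      χ.2.apply_one_eq]
    push_cast; rfl
  have hs2 : ∀ χ : IrrCharacter G, ∑ a ∈ E, conj ((χ : G → ℂ) a) = s χ := fun χ => by
    rw [← map_sum, hs1, Complex.conj_ofReal]
  have hb : ∀ χ ∈ principalBlock M G, χ ≠ irrOne G →
      sR A (χ : G → ℂ) / charDegree (χ : G → ℂ) ≤ 2 := fun χ hχ hne =>
    (h z hzA hz1).sR_le hzA hz1 hχ (hf χ hne z hz1)
  have hq : Nat.card A ≤ 3 := by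
    set T : ℝ := ∑ v ∈ E, 2 * (lamP M (centralizer ({(v : G)} : Set G)) : ℝ) with hT
    have hT1 : (Nat.card A - 1) * (2 * (Nat.card A : ℝ)) ≤ T := by
      rw [← hEc, ← nsmul_eq_mul]
      refine card_nsmul_le_sum _ _ _ fun v _ => mul_le_mul_of_nonneg_left ?_ zero_le_two
      exact_mod_cast card_le_lamP_centralizer M hA (hc v v.2)
    have e1 : ∑ χ with χ ∈ principalBlock M G,
        sR A (χ : G → ℂ) / charDegree (χ : G → ℂ) * s χ ^ 2 = (Nat.card A - 1) * T := by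
      have := sum_congr (rfl : E = E) fun a ha => sum_congr (rfl : E = E) fun v hv =>
        ((h a a.2 (hE1 a ha)).eqn a.2 (hE1 a ha) hA (pElt_of_mem hp.out hA v.2) (hE1 v hv)).trans
          (by rw [h2 v v.2 (hE1 v hv)])
      rw [sum_const, sum_congr rfl fun a _ => sum_comm, sum_comm, sum_congr rfl fun χ _ => by
        rw [sum_congr rfl fun a _ => by rw [← mul_sum, hs2], ← sum_mul, ← mul_sum, hs1, mul_assoc,
          ← sq]] at this
      rw [nsmul_eq_mul] at this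
      rw [← hEc, hT]
      exact_mod_cast this
    have e2 : ∑ χ with χ ∈ principalBlock M G, s χ ^ 2 = T := by
      have := sum_congr (rfl : E = E) fun v hv => (congrArg₂ (· - ·)
        (sum_sR_mul (M := M) hA (pElt_of_mem hp.out hA v.2))
        (orth_one (M := M) (pElt_of_mem hp.out hA v.2) (hE1 v hv)
          (not_dvd_orderOf_one hp.out))).trans (by rw [h2 v v.2 (hE1 v hv), sub_zero])
      simp only [← sum_sub_distrib, ← sub_mul] at this
      rw [sum_comm, sum_congr rfl fun χ _ => by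
        rw [← mul_sum, hs2, χ.2.apply_one_eq, ← Complex.ofReal_natCast, ← Complex.ofReal_sub]] at this
      rw [hT]
      simp only [sq]
      exact_mod_cast this
    have e3 := sum_le_of_bound (p := p) (M := M) (c := (Nat.card A - 2) * (Nat.card A - 1) ^ 2)
      (f := fun χ => sR A (χ : G → ℂ) / charDegree (χ : G → ℂ) * s χ ^ 2)
      (g := fun χ => 2 * s χ ^ 2)
      (fun χ hχ hne => mul_le_mul_of_nonneg_right (hb χ hχ hne) (by positivity))
      (by simp only [hs, sR_one, deg_one]; apply le_of_eq; ring)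
    rw [e1, ← mul_sum, e2] at e3
    by_contra hc
    have h4 : (4 : ℝ) ≤ Nat.card A := by exact_mod_cast not_le.1 hc
    have h5 := mul_le_mul_of_nonneg_left hT1 (by linarith : (0 : ℝ) ≤ Nat.card A - 3)
    have h6 : (Nat.card A - 3) * (2 * (Nat.card A : ℝ)) ≤ (Nat.card A - 2) * (Nat.card A - 1) :=
      le_of_mul_le_mul_left (by nlinarith) (by linarith : (0 : ℝ) < Nat.card A - 1)
    nlinarith
  have hsub : cj A z ⊆ (A : Set G) \ {1} := fun d hd =>
    ⟨hd.1, fun e => hz1 (isConj_one_left.1 (e ▸ hd.2))⟩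
  have hA1 : ((A : Set G) \ {1}).ncard = Nat.card A - 1 := by
    rw [Set.ncard_sdiff_singleton_of_mem A.one_mem]; rfl
  have hle := Set.ncard_le_ncard hsub
  have hq3 : Nat.card A = 3 := by
    have := h2 z hzA hz1
    omega
  have heq := Set.eq_of_subset_of_ncard_le hsub (by rw [hA1, h2 z hzA hz1, hq3])
  have hcj : ∀ y ∈ A, y ≠ 1 → IsConj z y := fun y hy h1 => (heq.ge ⟨hy, h1⟩).2
  have : IsMulCommutative A := ⟨⟨fun a b => Subtype.ext (hc a a.2 b b.2).eq⟩⟩
  have hv : ∀ χ : IrrCharacter G, ∀ y ∈ A, y ≠ 1 → (χ : G → ℂ) y = (χ : G → ℂ) z :=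
    fun χ y hy h1 => (χ.2.isClassFunction.eq_of_isConj (hcj y hy h1)).symm
  obtain ⟨χ, hχ, h3⟩ := exists_ne_one (M := M) (pElt_of_mem hp.out hA hzA) hz1
  obtain ⟨k, -, hk, -⟩ := CharDeg.Pair.const_on (Q := A)
    (fun e => hz1 (by rwa [e, mem_bot] at hzA)) χ.2.isCharacter (hv χ)
  have h4 : s χ = 2 * k := by
    have := hs1 χ
    rw [sum_congr rfl fun (a : A) ha => hv χ a a.2 (hE1 a ha), sum_const, nsmul_eq_mul, hk,
      ← Complex.ofReal_natCast, hEc, hq3] at this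
    have := congrArg Complex.re this
    simp only [Complex.re_ofReal_mul, Complex.ofReal_re, Complex.intCast_re] at this
    rw [← this]; norm_num
  have hk1 : (k : ℝ) ≤ -1 := by
    rw [hk, Complex.intCast_re] at h3
    have : k < 0 := by exact_mod_cast h3
    exact_mod_cast (by omega : k ≤ -1)
  have hne : χ ≠ irrOne G := by
    rintro rfl
    simp only [irrOne_apply, Complex.one_re] at h3
    linarith
  have hx : (0 : ℝ) < charDegree (χ : G → ℂ) := by exact_mod_cast χ.2.charDegree_pos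
  have h5 : sR A (χ : G → ℂ) / charDegree (χ : G → ℂ) < 1 := by
    rw [div_lt_one hx]
    simp only [hs] at h4
    linarith
  have h6 : (1 : ℝ) ≤ ‖(χ : G → ℂ) z‖ ^ 2 := by
    rw [hk, Complex.norm_intCast, sq_abs]
    nlinarith
  set t := (2 - sR A (χ : G → ℂ) / charDegree (χ : G → ℂ)) * ‖(χ : G → ℂ) z‖ ^ 2 with ht
  have e3 := sum_le_of_bound (p := p) (M := M) (c := 1)
    (f := fun ψ => sR A (ψ : G → ℂ) / charDegree (ψ : G → ℂ) * ‖(ψ : G → ℂ) z‖ ^ 2 +
      if ψ = χ then t else 0)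
    (g := fun ψ => 2 * ‖(ψ : G → ℂ) z‖ ^ 2)
    (fun ψ hψ hne => by
      split_ifs with e
      · rw [e, ht]; apply le_of_eq; ring
      · rw [add_zero]
        exact mul_le_mul_of_nonneg_right (hb ψ hψ hne) (by positivity))
    (by simp only [sR_one, deg_one, hq3, if_neg hne.symm]; norm_num)
  rw [sum_add_distrib, (h z hzA hz1).eqn_self hzA hz1 hA, ← mul_sum,
    sum_norm_sq (pElt_of_mem hp.out hA hzA), h2 z hzA hz1, sum_ite_eq',
    if_pos (mem_filter.2 ⟨mem_univ _, hχ⟩)] at e3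
  push_cast at e3
  nlinarith

end Cfsg.Lib.PSy
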