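import Cfsg.Agent.Lib.Core.PSolvable
import Cfsg.Agent.Lib.Coprime.Constraint
import Cfsg.Agent.Lib.Modular.PPart
import Cfsg.Agent.S1496

/-! Groups in which any two Sylow `p`-subgroups generate a `p`-solvable subgroup: local part. -/

set_option autoImplicit false

namespace Cfsg.Lib.PSy

open Subgroup Cfsg.Lib.Core Cfsg.Lib.Modular Cfsg.Lib.Coprime
open scoped Pointwise

variable {G : Type*} [Group G] [Finite G] {p : ℕ} [hp : Fact p.Prime]

theorem coset {K : Subgroup G} (hK : (Nat.card K).Coprime p) {u : G}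
    (hu : ∃ k : ℕ, orderOf u = p ^ k) (hn : u ∈ normalizer (K : Set G)) {k : G} (hk : k ∈ K) :
    ∃ t ∈ K, ∃ o ∈ K, Commute u o ∧ t * (u * k) * t⁻¹ = u * o := by
  obtain ⟨j, hj⟩ := hu
  obtain ⟨t, ht, o, ho, e1, e2⟩ := Cfsg.Agent.S1496.result K u hn
    (by rw [hj]; exact Nat.Coprime.pow_left _ hK.symm) (u * k * u⁻¹)
    ((mem_normalizer_iff.1 hn k).1 hk)
  refine ⟨t, ht, o, ho, e1.symm, ?_⟩
  rw [← e1, ← e2]; group

omit [Finite G] in
theorem not_dvd_of_mem {K : Subgroup G} (hK : (Nat.card K).Coprime p) {k : G} (hk : k ∈ K) :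
    ¬ p ∣ orderOf k := fun h =>
  hp.out.one_lt.ne' (Nat.Coprime.eq_one_of_dvd hK.symm (h.trans (orderOf_dvd_natCard K hk)))

omit hp in
theorem comm_of_mem {R L : Subgroup G} (hR : IsPGroup p R) (hL : (Nat.card L).Coprime p) {b l : G}
    (hb : b ∈ R) (hl : l ∈ L) (hbn : b ∈ normalizer (L : Set G))
    (hln : l ∈ normalizer (R : Set G)) : Commute b l := by
  have h1 : b * l * b⁻¹ * l⁻¹ ∈ R ⊓ L := mem_inf.2 ⟨by
    have := R.mul_mem hb ((mem_normalizer_iff.1 hln _).1 (R.inv_mem hb))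
    simpa only [mul_assoc] using this,
    L.mul_mem ((mem_normalizer_iff.1 hbn _).1 hl) (L.inv_mem hl)⟩
  rw [inf_eq_bot_of_isPGroup_of_coprime hR hL, mem_bot] at h1
  exact commutatorElement_eq_one_iff_commute.1 h1

/-- A `p'`-subgroup normalised by a Sylow `p`-subgroup of a `p`-constrained group. -/
theorem le_core_of_sylow (hG : IsPConstrained p G) (S : Sylow p G) {L : Subgroup G}
    (hL : (Nat.card L).Coprime p) (hS : (S : Subgroup G) ≤ normalizer (L : Set G)) :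
    L ≤ pPrimeCore p G := by
  refine le_pPrimeCore_of_map_le_centralizer (isPConstrained_iff.1 hG) hL fun l hl r hr => ?_
  have h1 := pCore_le_sylow (S.mapSurjective (QuotientGroup.mk'_surjective (pPrimeCore p G))) hr
  exact comm_of_mem (pCore_isPGroup p _) (coprime_map _ hL) hr hl
    (((map_mono hS).trans (le_normalizer_map _)) h1) (le_normalizer_of_normal (mem_top _))

/-- The abstract form of the balance property. -/
theorem le_core_of_chain (hG : IsPConstrained p G) (S : Sylow p G) {A L : Subgroup G}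
    (hL : (Nat.card L).Coprime p) (hA : A ≤ normalizer (L : Set G)) {z : G}
    (hz : ∃ k : ℕ, orderOf z = p ^ k) (hzA : z ∈ A) (hc : ∀ a ∈ A, Commute z a)
    (hS : ∀ s ∈ S, s * z * s⁻¹ ∈ A) (ho : ∀ o ∈ L, Commute z o → o ∈ pPrimeCore p G) :
    L ≤ pPrimeCore p G := by
  set f := QuotientGroup.mk' (pPrimeCore p G) with hf
  set R := pCore p (G ⧸ pPrimeCore p G) with hR
  have hRn : R.Normal := inferInstance
  have hRp : IsPGroup p R := pCore_isPGroup p _
  have hLf := coprime_map f hL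
  have hRS := pCore_le_sylow (S.mapSurjective (QuotientGroup.mk'_surjective (pPrimeCore p G)))
  have hB : ∀ b ∈ R, b ∈ A.map f → ∀ l ∈ L.map f, Commute b l := fun b hb hbA l hl =>
    comm_of_mem hRp hLf hb hl (((map_mono hA).trans (le_normalizer_map _)) hbA)
      (le_normalizer_of_normal (mem_top _))
  have hBz : ∀ b ∈ A.map f, Commute (f z) b := by
    rintro _ ⟨a, ha, rfl⟩
    exact (hc a ha).map f
  have h1 : ∀ r ∈ R, f z * r * (f z)⁻¹ * r⁻¹ ∈ A.map f ∧ (f z)⁻¹ * r * f z * r⁻¹ ∈ A.map f := by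
    intro r hr
    obtain ⟨s, hs, rfl⟩ := hRS hr
    refine ⟨⟨z * (s * z * s⁻¹)⁻¹, A.mul_mem hzA (A.inv_mem (hS s hs)), ?_⟩,
      ⟨z⁻¹ * (s * z * s⁻¹), A.mul_mem (A.inv_mem hzA) (hS s hs), ?_⟩⟩ <;>
    simp only [hf, map_mul, map_inv] <;> group
  have hcomm : ∀ x ∈ L.map f, Commute (f z) x := by
    intro x hx
    have hzn : f z ∈ normalizer ((L.map f : Subgroup _) : Set (G ⧸ pPrimeCore p G)) :=
      ((map_mono hA).trans (le_normalizer_map _)) (mem_map_of_mem f hzA)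
    set c := x * (f z * x⁻¹ * (f z)⁻¹) with hcdef
    have hcL : c ∈ L.map f :=
      mul_mem hx ((mem_normalizer_iff.1 hzn _).1 (inv_mem hx))
    have hcR : c ∈ R := by
      refine isPConstrained_iff.1 hG fun r hr => ?_
      -- `c r c⁻¹ = β r`
      set r1 := (f z)⁻¹ * r * f z with hr1
      have hr1R : r1 ∈ R := by simpa using hRn.conj_mem r hr (f z)⁻¹
      set r2 := x⁻¹ * r1 * x with hr2
      have hr2R : r2 ∈ R := by simpa using hRn.conj_mem r1 hr1R x⁻¹
      have hb2A := (h1 r2 hr2R).1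
      have hb2R : f z * r2 * (f z)⁻¹ * r2⁻¹ ∈ R := mul_mem (hRn.conj_mem _ hr2R _) (inv_mem hr2R)
      have hb1A := (h1 r hr).2
      have hb1R : (f z)⁻¹ * r * f z * r⁻¹ ∈ R := mul_mem hr1R (inv_mem hr)
      set β := (f z * r2 * (f z)⁻¹ * r2⁻¹) * ((f z)⁻¹ * r * f z * r⁻¹) with hβ
      have hβR : β ∈ R := mul_mem hb2R hb1R
      have hβA : β ∈ A.map f := mul_mem hb2A hb1A
      have e1 : c * r * c⁻¹ = β * r := by
        have e2 := (hB _ hb2R hb2A x hx).eq
        calc c * r * c⁻¹ = (x * (f z * r2 * (f z)⁻¹ * r2⁻¹)) * x⁻¹ * r1 := by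
              rw [hcdef, hr2, hr1]; group
          _ = β * r := by rw [← e2, hβ, hr1]; group
      have hβc : Commute β c := hB _ hβR hβA c hcL
      have e3 : ∀ n : ℕ, c ^ n * r * (c ^ n)⁻¹ = β ^ n * r := by
        intro n
        induction n with
        | zero => simp
        | succ n ih =>
          calc c ^ (n + 1) * r * (c ^ (n + 1))⁻¹ = c * (c ^ n * r * (c ^ n)⁻¹) * c⁻¹ := by group
            _ = (c * β ^ n) * c⁻¹ * (c * r * c⁻¹) := by rw [ih]; group
            _ = β ^ (n + 1) * r := by rw [← (hβc.pow_left n).eq, e1]; group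
      have e4 := e3 (orderOf c)
      rw [pow_orderOf_eq_one, one_mul, inv_one, mul_one, eq_comm, mul_eq_right] at e4
      have e5 : β = 1 := eq_one_of_pElt_of_not_dvd (pElt_of_mem hp.out hRp hβR) fun hd =>
        not_dvd_of_mem hLf hcL (hd.trans (orderOf_dvd_of_pow_eq_one e4))
      rw [e5, one_mul, mul_inv_eq_iff_eq_mul] at e1
      exact e1.symm
    have : c ∈ R ⊓ L.map f := ⟨hcR, hcL⟩
    rw [inf_eq_bot_of_isPGroup_of_coprime hRp hLf, mem_bot, hcdef] at this
    have e : x * f z = f z * x := by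
      calc x * f z = (x * (f z * x⁻¹ * (f z)⁻¹)) * (f z * x) := by group
        _ = f z * x := by rw [this, one_mul]
    exact e.symm
  intro x hx
  obtain ⟨t, ht, o, hoL, e1, e2⟩ := coset hL hz (hA hzA) hx
  have e3 : f o = 1 := (QuotientGroup.eq_one_iff o).2 (ho o hoL e1)
  have e4 := congrArg f e2
  simp only [map_mul, map_inv, e3, mul_one] at e4
  have e5 := (hcomm _ (mem_map_of_mem f ht)).eq
  have e6 : f x = 1 := by
    calc f x = (f z)⁻¹ * (f t)⁻¹ * (f t * (f z * f x) * (f t)⁻¹) * f t := by group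
      _ = (f z)⁻¹ * (f t)⁻¹ * (f z * f t) := by rw [e4]; group
      _ = 1 := by rw [e5]; group
  exact (QuotientGroup.eq_one_iff x).1 e6

/-- `y` lies in the centre of a Sylow `p`-subgroup. -/
def PC (p : ℕ) (y : G) : Prop :=
  ∃ Q : Sylow p G, y ∈ Q ∧ ∀ u ∈ Q, Commute y u

omit [Finite G] hp in
theorem mem_smul_sylow {Q : Sylow p G} {g y : G} : y ∈ g • Q ↔ g⁻¹ * y * g ∈ Q := by
  change y ∈ (MulAut.conj g • (Q : Subgroup G)) ↔ _
  rw [mem_pointwise_smul_iff_inv_smul_mem]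
  simp only [MulAut.smul_def, MulAut.conj_inv_apply]
  rfl

omit [Finite G] hp in
theorem PC.conj {y y' : G} (h : PC p y) (e : IsConj y y') : PC p y' := by
  obtain ⟨g, rfl⟩ := isConj_iff.1 e
  obtain ⟨Q, h1, h2⟩ := h
  refine ⟨g • Q, mem_smul_sylow.2 (by simpa [mul_assoc] using h1), fun u hu => ?_⟩
  have := (h2 _ (mem_smul_sylow.1 hu)).eq
  calc g * y * g⁻¹ * u = g * (y * (g⁻¹ * u * g)) * g⁻¹ := by group
    _ = u * (g * y * g⁻¹) := by rw [this]; group

/-- Any two Sylow `p`-subgroups generate a `p`-solvable subgroup. -/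
def H2 (p : ℕ) (G : Type*) [Group G] : Prop :=
  ∀ S T : Sylow p G, IsPSolvable p ↥((S : Subgroup G) ⊔ (T : Subgroup G))

theorem H2.key (h : H2 p G) (P : Sylow p G) {y : G} (hy : PC p y) :
    ∃ K : Subgroup G, (Nat.card K).Coprime p ∧ (P : Subgroup G) ≤ normalizer (K : Set G) ∧
      ∃ d ∈ P, IsConj y d ∧ d⁻¹ * y ∈ K := by
  obtain ⟨Q, hyQ, hQ⟩ := hy
  set H := (P : Subgroup G) ⊔ (Q : Subgroup G) with hH
  have hc := isPConstrained_of_isPSolvable (h P Q)
  have hyH : y ∈ H := mem_sup_right hyQ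
  have h1 : (⟨y, hyH⟩ : H) ∈ pPrimePCore p H :=
    centralizer_sylow_le_pPrimePCore hc (Q.subtype le_sup_right)
      fun u hu => Subtype.ext (hQ u hu).eq.symm
  rw [← pPrimeCore_sup_inf_pPrimePCore (P.subtype (le_sup_left : _ ≤ H)), sup_comm,
    ← SetLike.mem_coe, mul_normal] at h1
  obtain ⟨d, hd, k, hk, e⟩ := h1
  have e' : (d : G) * k = y := congrArg Subtype.val e
  have hK := pPrimeCoreOf_coprime p H
  have hn : (P : Subgroup G) ≤ _ := le_sup_left.trans (le_normalizer_pPrimeCoreOf p H)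
  have hkK : (k : G) ∈ (pPrimeCore p H).map H.subtype := mem_map_of_mem _ hk
  have hdP : (d : G) ∈ P := hd.1
  have hdp := pElt_of_mem hp.out P.2 hdP
  refine ⟨_, hK, hn, d, hdP, ?_, by rw [← e', inv_mul_cancel_left]; exact hkK⟩
  obtain ⟨t, -, o, ho, e1, e2⟩ := coset hK hdp (hn hdP) hkK
  have e3 := congrArg (pPart p) e2
  rw [pPart_conj, e', pPart_of_pElt hp.out (pElt_of_mem hp.out Q.2 hyQ),
    pPart_mul hp.out hdp (not_dvd_of_mem hK ho) e1] at e3
  exact isConj_iff.2 ⟨t, e3⟩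

theorem H2.commute (h : H2 p G) {P : Subgroup G} (hP : IsPGroup p P) {a b : G} (ha : a ∈ P)
    (hb : b ∈ P) (h1 : PC p a) (h2 : PC p b) : Commute a b := by
  obtain ⟨Q, haQ, hQ⟩ := h1
  obtain ⟨K, hK, hn, d, hd, -, hk⟩ := h.key Q h2
  have h3 : b⁻¹ * (a * b * a⁻¹) ∈ P ⊓ K := by
    refine ⟨P.mul_mem (P.inv_mem hb) (P.mul_mem (P.mul_mem ha hb) (P.inv_mem ha)), ?_⟩
    have h4 := K.mul_mem (K.inv_mem hk) ((mem_normalizer_iff.1 (hn haQ) _).1 hk)
    have e := ((hQ d hd).inv_right).eq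
    have : (d⁻¹ * b)⁻¹ * (a * (d⁻¹ * b) * a⁻¹) = b⁻¹ * (a * b * a⁻¹) := by
      calc (d⁻¹ * b)⁻¹ * (a * (d⁻¹ * b) * a⁻¹) = b⁻¹ * d * (a * d⁻¹) * b * a⁻¹ := by group
        _ = _ := by rw [e]; group
    rwa [this] at h4
  rw [inf_eq_bot_of_isPGroup_of_coprime hP hK, mem_bot] at h3
  calc a * b = b * (b⁻¹ * (a * b * a⁻¹)) * a := by group
    _ = b * a := by rw [h3, mul_one]

/-- The conjugates of `z` in `A`. -/
def cj (A : Subgroup G) (z : G) : Set G := {d | d ∈ A ∧ IsConj z d}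

theorem ncard_cj_sylow (P Q : Sylow p G) (z : G) :
    (cj (Q : Subgroup G) z).ncard = (cj (P : Subgroup G) z).ncard := by
  obtain ⟨g, rfl⟩ := MulAction.exists_smul_eq G P Q
  rw [← Set.ncard_image_of_injective (cj (P : Subgroup G) z) (MulAut.conj g).injective]
  congr 1
  ext d
  constructor
  · rintro ⟨h1, h2⟩
    exact ⟨g⁻¹ * d * g, ⟨mem_smul_sylow.1 h1, h2.trans (isConj_iff.2 ⟨g⁻¹, by simp⟩)⟩,
      by simp [mul_assoc]⟩
  · rintro ⟨d, ⟨h1, h2⟩, rfl⟩
    have h1' : d ∈ P := h1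
    exact ⟨mem_smul_sylow.2 (by simpa [mul_assoc] using h1'), h2.trans (isConj_iff.2 ⟨g, rfl⟩)⟩

theorem mem_of_cj_subset (P : Sylow p G) {Q : Subgroup G} (hQ : IsPGroup p Q) {z : G}
    (h : cj (P : Subgroup G) z ⊆ Q) {y : G} (hy : y ∈ Q) (e : IsConj z y) : y ∈ P := by
  obtain ⟨P1, h1⟩ := hQ.exists_le_sylow
  have : cj (P : Subgroup G) z = cj (P1 : Subgroup G) z :=
    Set.eq_of_subset_of_ncard_le (fun d hd => ⟨h1 (h hd), hd.2⟩) (ncard_cj_sylow P P1 z).le
  have h2 : y ∈ cj (P1 : Subgroup G) z := ⟨h1 hy, e⟩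
  rw [← this] at h2
  exact h2.1

/-- Fixed points of `u` in `P`-invariant `p'`-subgroups lie in `O_{p'}(C(u))`. -/
def Good (p : ℕ) (P : Subgroup G) (u : G) : Prop :=
  ∀ K : Subgroup G, (Nat.card K).Coprime p → P ≤ normalizer (K : Set G) →
    ∀ o ∈ K, Commute u o → o ∈ centralizerPPrimeCore p u

omit [Finite G] hp in
theorem subgroupOf_le_normalizer {P K C : Subgroup G} (h : P ≤ normalizer (K : Set G)) :
    P.subgroupOf C ≤ normalizer ((K.subgroupOf C : Subgroup C) : Set C) := fun _ hu =>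
  mem_normalizer_iff.2 fun k => mem_normalizer_iff.1 (h hu) (k : G)

theorem good_center (P : Sylow p G) {z : G} (hz : ∀ u ∈ P, Commute z u)
    (hc : IsPConstrained p (centralizer ({z} : Set G))) : Good p (P : Subgroup G) z := by
  intro K hK hn o ho e
  have hP : (P : Subgroup G) ≤ centralizer ({z} : Set G) := fun u hu =>
    mem_centralizer_singleton_iff.2 (hz u hu).eq.symm
  exact ⟨⟨o, mem_centralizer_singleton_iff.2 e.eq.symm⟩,
    le_core_of_sylow hc (P.subtype hP) (coprime_subgroupOf _ hK) (subgroupOf_le_normalizer hn) ho,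
    rfl⟩

theorem good_of_cj (P : Sylow p G) {z a : G} (hzP : z ∈ P) (hz : ∀ u ∈ P, Commute z u)
    (hc : IsPConstrained p (centralizer ({z} : Set G)))
    (hc' : IsPConstrained p (centralizer ({a} : Set G)))
    (ha : ∀ d ∈ cj (P : Subgroup G) z, Commute a d) : Good p (P : Subgroup G) a := by
  intro K hK hn o ho e
  set C := centralizer ({a} : Set G) with hC
  have hm : ∀ {d : G}, Commute a d → d ∈ C := fun h => mem_centralizer_singleton_iff.2 h.eq.symm
  have hzC : z ∈ C := hm (ha z ⟨hzP, IsConj.refl z⟩)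
  obtain ⟨S, hS⟩ := (P.2.comap_subtype (K := C)).exists_le_sylow
  have hzp := pElt_of_mem hp.out P.2 hzP
  refine ⟨⟨o, hm e⟩, le_core_of_chain hc' S (A := (P : Subgroup G).subgroupOf C)
    (coprime_subgroupOf _ hK) (subgroupOf_le_normalizer hn) (z := ⟨z, hzC⟩) (by simpa using hzp)
    hzP (fun u hu => Subtype.ext (hz u hu).eq) (fun s hs => ?_) (fun o' ho' e' => ?_) ho, rfl⟩
  · refine mem_of_cj_subset P (S.2.map C.subtype) (fun d hd => ⟨⟨d, hm (ha d hd)⟩, hS hd.1, rfl⟩)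
      (mem_map_of_mem C.subtype (S.1.mul_mem (S.1.mul_mem hs (hS hzP)) (S.1.inv_mem hs)))
      (isConj_iff.2 ⟨s, rfl⟩)
  · have h1 := good_center P hz hc K hK hn o' ho' (congrArg Subtype.val e'.eq)
    refine le_pPrimeCore_of_le_centralizer (isPConstrained_iff.1 hc')
      (R := zpowers (⟨z, hzC⟩ : C)) (L := (centralizerPPrimeCore p z).subgroupOf C)
      (isPGroup_zpowers hp.out (by simpa using hzp))
      (coprime_subgroupOf _ (pPrimeCoreOf_coprime p _)) (fun l hl r hr => ?_) (fun c hc => ?_) h1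
    · obtain ⟨n, rfl⟩ := hr
      have : Commute (⟨z, hzC⟩ : C) l :=
        Subtype.ext (mem_centralizer_singleton_iff.1 (pPrimeCoreOf_le p _ hl)).symm
      exact (this.zpow_left n).eq
    · refine subgroupOf_le_normalizer (le_normalizer_pPrimeCoreOf p _) ?_
      exact mem_centralizer_singleton_iff.2
        (congrArg Subtype.val (hc _ (mem_zpowers _))).symm

end Cfsg.Lib.PSy
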