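import Cfsg.Agent.Lib.PSy.Chr
import Cfsg.Agent.Lib.ZStar.Main

/-! Groups in which any two Sylow `p`-subgroups generate a `p`-solvable subgroup are
`p`-solvable. -/

set_option autoImplicit false

namespace Cfsg.Lib.PSy

open Subgroup Cfsg.Lib.Modular Cfsg.Lib.Core Cfsg.Lib.Char Cfsg.Lib.Block

variable {G : Type*} [Group G] [Finite G] {p : ℕ} [hp : Fact p.Prime]

theorem H2.ch (h : H2 p G) (M : Ideal AlgInt) [Modular p M] (P : Sylow p G) {z : G} (hz : PC p z)
    {A : Subgroup G} (hA : A ≤ P) (hc : cj (P : Subgroup G) z ⊆ A)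
    (hg : ∀ a ∈ A, a ≠ 1 → Good p (P : Subgroup G) a) : CH p M A z := by
  intro g
  have e : IsConj z (g * z * g⁻¹) := isConj_iff.2 ⟨g, rfl⟩
  obtain ⟨K, hK, hn, d, hd, e1, ho⟩ := h.key P (hz.conj e)
  refine ⟨d, hc ⟨hd, e.trans e1⟩, e.trans e1, K, hK, ho, fun a ha h1 k hk χ hχ => ?_⟩
  have hap := pElt_of_mem hp.out P.2 (hA ha)
  obtain ⟨t, -, o, hoK, e2, e3⟩ := coset hK hap (hn (hA ha)) hk
  rw [← χ.2.isClassFunction.conj_apply _ t, e3]
  exact apply_mul_of_mem_principalBlock hap (hg a ha h1 K hK hn o hoK e2) hχ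

theorem fth [IsSimpleGroup G] (hna : ¬ ∀ a b : G, Commute a b) : Fth G := by
  intro χ hχ g hg
  have h := χ.2.isCharacter
  refine lt_of_le_of_ne (h.norm_apply_one ▸ h.norm_le g) fun e => hna fun a b => ?_
  have h1 : charCenter (χ : G → ℂ) = ⊤ :=
    (χ.2.isClassFunction.charCenter_normal.eq_bot_or_eq_top).resolve_left fun e' => hg (by
      have := h.mem_charCenter_iff.2 (e.trans h.norm_apply_one.symm)
      rwa [e', mem_bot] at this)
  have h2 : charKer (χ : G → ℂ) = ⊥ :=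
    (h.charKer_normal.eq_bot_or_eq_top).resolve_right fun e' => hχ
      (eq_irrOne_of_forall_apply_eq χ fun x => h.mem_charKer_iff.1 (e'.ge (mem_top x)))
  have h3 := h.commutator_mem_charKer (h1.ge (mem_top a)) b
  rw [h2, mem_bot] at h3
  exact commutatorElement_eq_one_iff_commute.1 h3

omit [Finite G] in
theorem central_eq_one [IsSimpleGroup G] (hna : ¬ ∀ a b : G, Commute a b) {z : G}
    (hz : ∀ g, Commute z g) : z = 1 := by
  rcases (inferInstance : (center G).Normal).eq_bot_or_eq_top with e | e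
  · have : z ∈ center G := mem_center_iff.2 fun g => (hz g).eq.symm
    rwa [e, mem_bot] at this
  · exact absurd (fun a b => (mem_center_iff.1 (e.ge (mem_top a)) b).symm) hna

theorem swap_two (P : Sylow 2 G) {z w : G} (hz : ∀ u ∈ P, Commute z u) (hzP : z ∈ P)
    (hw : ∀ u ∈ P, Commute w u) (hwP : w ∈ P) (e : IsConj z w)
    (h2 : (cj (P : Subgroup G) z).ncard ≤ 2) : w = z := by
  by_contra hne
  obtain ⟨g, hg⟩ := isConj_iff.1 e
  obtain ⟨n, hn, e1⟩ := P.conj_eq_normalizer_conj_of_mem_centralizer z g⁻¹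
    (fun u hu => (hz u hu).eq.symm) (by rw [inv_inv, hg]; exact fun u hu => (hw u hu).eq.symm)
  rw [inv_inv, hg] at e1
  have h3 : n⁻¹ * w * n ∈ cj (P : Subgroup G) z :=
    ⟨by simpa using (mem_normalizer_iff.1 (inv_mem hn) w).1 hwP,
      e.trans (isConj_iff.2 ⟨n⁻¹, by simp⟩)⟩
  have h4 : n⁻¹ * w * n = z := by
    by_contra h5
    refine h2.not_gt ((Set.two_lt_ncard (Set.toFinite _)).2
      ⟨z, ⟨hzP, IsConj.refl z⟩, w, ⟨hwP, e⟩, _, h3, Ne.symm hne, Ne.symm h5, fun h6 => hne ?_⟩)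
    have : n⁻¹ * w * n = n⁻¹ * z * n := h6.symm.trans e1
    simpa using this
  have h5 : Commute z (n ^ 2) := by
    calc z * n ^ 2 = n * n * (n⁻¹ * (n⁻¹ * z * n) * n) := by rw [sq]; group
      _ = n ^ 2 * z := by rw [← e1, h4, sq]
  have h6 : pPart 2 n ∈ P := by
    have h7 := (isPGroup_zpowers Nat.prime_two (pElt_pPart Nat.prime_two n)).inf_normalizer_sylow P
    have h8 : pPart 2 n ∈ zpowers (pPart 2 n) ⊓ normalizer ((P : Subgroup G) : Set G) :=
      ⟨mem_zpowers _, pPart_mem 2 hn⟩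
    exact (h7.le h8).2
  have h7 : Commute z (regPart 2 n) := by
    have h8 : Commute z (regPart 2 n ^ 2) := by
      have := commute_regPart_right h5 2
      rwa [sq, regPart_mul_of_commute 2 (Commute.refl n), ← sq] at this
    obtain ⟨k, hk⟩ : Odd (orderOf (regPart 2 n)) := Nat.not_even_iff_odd.1 fun h =>
      not_dvd_orderOf_regPart Nat.prime_two n h.two_dvd
    have h9 : regPart 2 n = (regPart 2 n ^ 2) ^ (k + 1) := by
      rw [← pow_mul, show 2 * (k + 1) = orderOf (regPart 2 n) + 1 by omega, pow_succ,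
        pow_orderOf_eq_one, one_mul]
    rw [h9]
    exact h8.pow_right _
  have h8 : Commute z n := by
    rw [← pPart_mul_regPart 2 n]
    exact (hz _ h6).mul_right h7
  apply hne
  rw [e1, mul_assoc, h8.eq, inv_mul_cancel_left]

theorem simple_case [IsSimpleGroup G] (hna : ¬ ∀ a b : G, Commute a b) (hd : p ∣ Nat.card G)
    (h : H2 p G) (hpr : ∀ H : Subgroup G, H ≠ ⊤ → IsPSolvable p H) : False := by
  have := Fintype.ofFinite G
  obtain ⟨M, hM⟩ := exists_isPModular hp.out
  have : Modular p M := ⟨hM⟩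
  have hf := fth hna
  have hc : ∀ a : G, a ≠ 1 → IsPConstrained p (centralizer ({a} : Set G)) := fun a ha =>
    isPConstrained_of_isPSolvable (hpr _ fun e => ha (central_eq_one hna fun g =>
      (mem_centralizer_singleton_iff.1 (e.ge (mem_top g))).symm))
  obtain ⟨P⟩ : Nonempty (Sylow p G) := inferInstance
  set Z := (P : Subgroup G) ⊓ centralizer ((P : Subgroup G) : Set G) with hZ
  have hZc : ∀ {z}, z ∈ Z → ∀ u ∈ P, Commute z u := fun hz u hu => (hz.2 u hu).symm
  have hpc : ∀ {z}, z ∈ Z → PC p z := fun hz => ⟨P, hz.1, hZc hz⟩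
  have h2 : ∀ z ∈ Z, z ≠ 1 → (cj (P : Subgroup G) z).ncard ≤ 2 := by
    intro z hz hz1
    set A := (P : Subgroup G) ⊓ centralizer (cj (P : Subgroup G) z) with hA
    have hs : cj (P : Subgroup G) z ⊆ A := fun d hd => ⟨hd.1, fun e he =>
      h.commute P.2 he.1 hd.1 ((hpc hz).conj he.2) ((hpc hz).conj hd.2)⟩
    have h3 := (h.ch M P (hpc hz) inf_le_left hs fun a ha h1 =>
      good_of_cj P hz.1 (hZc hz) (hc z hz1) (hc a h1) fun d hd => (ha.2 d hd).symm).ncard_le hf
      (hs ⟨hz.1, IsConj.refl z⟩) hz1 (P.2.to_le inf_le_left) fun a ha => hZc hz a ha.1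
    exact (Set.ncard_le_ncard (t := cj A z) (fun d hd => ⟨hs hd, hd.2⟩) (Set.toFinite _)).trans h3
  have h3 : ∀ z ∈ Z, z ≠ 1 → cj (P : Subgroup G) z ⊆ Z := by
    intro z hz hz1 d hd
    refine ⟨hd.1, fun u hu => ?_⟩
    by_cases e : d = z
    · rw [e]; exact hz.2 u hu
    by_contra hne
    refine (h2 z hz hz1).not_gt ((Set.two_lt_ncard (Set.toFinite _)).2
      ⟨z, ⟨hz.1, IsConj.refl z⟩, d, hd, u * d * u⁻¹,
        ⟨P.1.mul_mem (P.1.mul_mem hu hd.1) (P.1.inv_mem hu), hd.2.trans (isConj_iff.2 ⟨u, rfl⟩)⟩,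
        Ne.symm e, fun h4 => e ?_, fun h4 => hne (mul_inv_eq_iff_eq_mul.1 h4.symm)⟩)
    calc d = u⁻¹ * (u * d * u⁻¹) * u := by group
      _ = z := by rw [← h4, mul_assoc, (hZc hz u hu).eq, inv_mul_cancel_left]
  have h4 : ∀ z ∈ Z, z ≠ 1 → CH p M Z z := fun z hz hz1 =>
    h.ch M P (hpc hz) inf_le_left (h3 z hz hz1) fun a ha h1 => good_center P (hZc ha) (hc a h1)
  obtain ⟨z, hz, hzo⟩ : ∃ z ∈ Z, orderOf z = p := by
    have : Nontrivial P := (nontrivial_iff_ne_bot _).2 (P.ne_bot_of_dvd_card hd)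
    have h5 := P.2.center_nontrivial
    obtain ⟨x, hx⟩ := exists_prime_orderOf_dvd_card' (G := center P) p
      ((P.2.to_subgroup _).card_eq_or_dvd.resolve_left Finite.one_lt_card.ne')
    exact ⟨x.1, ⟨x.1.2, fun u hu => congrArg Subtype.val (mem_center_iff.1 x.2 ⟨u, hu⟩)⟩,
      by rw [orderOf_coe, orderOf_coe, hx]⟩
  have hz1 : z ≠ 1 := fun e => hp.out.one_lt.ne (by rw [← hzo, e, orderOf_one])
  have hZp : IsPGroup p Z := P.2.to_le inf_le_left
  by_cases hp2 : p = 2
  · subst hp2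
    have h5 : ∀ d ∈ cj (P : Subgroup G) z, d = z := fun d hd =>
      swap_two P (hZc hz) hz.1 (hZc (h3 z hz hz1 hd)) hd.1 hd.2 (h2 z hz hz1)
    have h6 : IsIsolatedInvolution z := by
      refine ⟨hzo, fun g hg => h5 _ ⟨?_, isConj_iff.2 ⟨g, rfl⟩⟩⟩
      have hzp := isPGroup_zpowers hp.out (x := z) ⟨1, by rw [hzo, pow_one]⟩
      have hyp := isPGroup_zpowers hp.out (x := g * z * g⁻¹) ⟨1, by rw [orderOf_conj_eq, hzo, pow_one]⟩
      refine mem_of_cj_subset P (hzp.to_sup_of_normal_right' hyp ?_)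
        (fun d hd => by rw [h5 d hd]; exact mem_sup_left (mem_zpowers z))
        (mem_sup_right (mem_zpowers _)) (isConj_iff.2 ⟨g, rfl⟩)
      refine le_trans (zpowers_le.2 ?_) (centralizer_le_normalizer _)
      rintro _ ⟨n, rfl⟩
      exact (hg.zpow_right n).eq.symm
    have h7 : oddCore G = ⊥ := by
      refine (inferInstance : (oddCore G).Normal).eq_bot_or_eq_top.resolve_right fun e => ?_
      have := odd_card_oddCore G
      rw [e, card_top] at this
      exact Nat.not_even_iff_odd.2 this (even_iff_two_dvd.2 hd)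
    refine hz1 (central_eq_one hna fun g => ?_)
    have := ZStar.zstar h6 g
    rw [h7, mem_bot] at this
    exact commutatorElement_eq_one_iff_commute.1 this
  · refine not_two hf hZp hz hz1 (fun a ha b hb => hZc ha b hb.1) h4 fun a ha h1 => ?_
    have h5 : (cj Z a).ncard ≤ 2 :=
      (Set.ncard_le_ncard (t := cj (P : Subgroup G) a) (fun d hd => ⟨hd.1.1, hd.2⟩)
        (Set.toFinite _)).trans (h2 a ha h1)
    refine le_antisymm h5 (not_lt.1 fun h6 => ?_)
    refine (h4 a ha h1).not_one hf ha h1 hZp (fun e => hp2 ?_) (fun h7 => P.not_dvd_index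
      (h7.trans (index_dvd_of_le fun u hu => mem_centralizer_singleton_iff.2 (hZc ha u hu).eq.symm)))
      fun d hd => (Set.ncard_le_one (Set.toFinite _)).1 (by omega) d hd a ⟨ha, IsConj.refl a⟩
    exact (Nat.prime_dvd_prime_iff_eq hp.out Nat.prime_two).1
      ((dvd_orderOf_of_pElt (pElt_of_mem hp.out hZp ha) h1).trans
        (orderOf_dvd_of_pow_eq_one (by rw [sq, e])))

theorem H2.subgroup (h : H2 p G) (H : Subgroup G) : H2 p H := by
  intro S T
  obtain ⟨S', hS⟩ := (S.2.map H.subtype).exists_le_sylow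
  obtain ⟨T', hT⟩ := (T.2.map H.subtype).exists_le_sylow
  have h1 := isPSolvable_of_le (h S' T') (sup_le_sup hS hT)
  rw [← Subgroup.map_sup] at h1
  exact isPSolvable_of_equiv h1 (equivMapOfInjective _ _ H.subtype_injective).symm

theorem H2.quotient (h : H2 p G) (N : Subgroup G) [N.Normal] : H2 p (G ⧸ N) := by
  intro S T
  obtain ⟨S, rfl⟩ := Sylow.mapSurjective_surjective (QuotientGroup.mk'_surjective N) p S
  obtain ⟨T, rfl⟩ := Sylow.mapSurjective_surjective (QuotientGroup.mk'_surjective N) p T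
  rw [Sylow.coe_mapSurjective, Sylow.coe_mapSurjective, ← Subgroup.map_sup]
  exact isPSolvable_map (h S T) _

theorem H2.isPSolvable.{u} (n : ℕ) : ∀ (G : Type u) [Group G] [Finite G],
    Nat.card G = n → H2 p G → IsPSolvable p G := by
  induction n using Nat.strong_induction_on with
  | _ n ih =>
  intro G _ _ hn h
  have hpr : ∀ H : Subgroup G, H ≠ ⊤ → IsPSolvable p H := fun H hH =>
    ih _ (hn ▸ lt_of_le_of_ne H.card_le_card_group fun e => hH (H.eq_top_of_card_eq e)) H rfl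
      (h.subgroup H)
  by_cases hd : p ∣ Nat.card G
  swap
  · exact isPSolvable_of_coprime (coprime_iff_not_dvd.2 hd)
  by_cases hna : ∀ a b : G, Commute a b
  · exact isPSolvable_of_isSolvable (Group.isSolvable_of_comm hna)
  by_contra hc
  have : Nontrivial G := by
    by_contra hs
    rw [not_nontrivial_iff_subsingleton] at hs
    exact hna fun a b => Subsingleton.elim _ _
  have : IsSimpleGroup G := ⟨fun N hN => by
    by_contra h1
    push Not at h1
    refine hc (isPSolvable_of_normal_quotient N (hpr N h1.2) (ih _ ?_ _ rfl (h.quotient N)))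
    rw [← hn, card_eq_card_quotient_mul_card_subgroup N]
    have h3 : 1 < Nat.card N := (one_lt_card_iff_ne_bot N).2 h1.1
    have h4 : 0 < Nat.card (G ⧸ N) := Nat.card_pos
    nlinarith⟩
  exact simple_case hna hd h hpr

end Cfsg.Lib.PSy
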